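import Cfsg.Agent.H57.BG.Pair
import Cfsg.Agent.H57.BG.Gap
import Cfsg.Prelude.Def_KGroupFacts

/-!
# Abelian regular subgroups of sporadic groups: tools (S3561, helper811)

* `inn_index` : the index of `Inn T` from `|Out Y| = n`, `T ≃* Y`;
* `center_bot` : a simple group whose order is not prime has trivial center;
* `sq_mem` : `r ^ 2 ∣ n`, `l` the factorisation of `n`;
* `Reg.four_cent`, `Reg.cent` : `|T : L| ∣ |C(z)| |Out T|` for an element `z` of order `p`, `p ^ k ∣ |T : L|`.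
-/

set_option autoImplicit false

namespace Cfsg.Agent.H811.BG

open Subgroup
open Cfsg.Agent.OrdDiv Cfsg.Agent.H57.BG

universe u v

theorem index_congr {X : Type u} {Y : Type v} [Group X] [Group Y] (e : X ≃* Y) :
    (MulAut.conj : X →* MulAut X).range.index = (MulAut.conj : Y →* MulAut Y).range.index := by
  have h1 : (MulAut.conj : Y →* MulAut Y).range =
      (MulAut.conj : X →* MulAut X).range.map (MulAut.congr e).toMonoidHom := by
    ext f
    constructor
    · rintro ⟨y, rfl⟩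
      refine ⟨MulAut.conj (e.symm y), ⟨_, rfl⟩, ?_⟩
      ext z
      show e (e.symm y * e.symm z * (e.symm y)⁻¹) = y * z * y⁻¹
      simp
    · rintro ⟨_, ⟨x, rfl⟩, rfl⟩
      refine ⟨e x, ?_⟩
      ext z
      show e x * z * (e x)⁻¹ = e (x * e.symm z * x⁻¹)
      simp
  rw [h1]
  exact (Subgroup.index_map_of_bijective (f := (MulAut.congr e).toMonoidHom) (MulAut.congr e).bijective _).symm

theorem inn_index {X : Type u} {Y : Type v} [Group X] [Group Y] (e : X ≃* Y) {n : ℕ}
    (h : Nat.card (Out Y) = n) : (Inn X).index = n := by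
  have h1 : (Inn X).index = (MulAut.conj : Y →* MulAut Y).range.index := index_congr e
  rw [h1]
  exact h

theorem center_bot {T : Type u} [Group T] [Finite T] [IsSimpleGroup T] (h : ¬ (Nat.card T).Prime) :
    center T = ⊥ := by
  refine center_eq_bot fun hc => h ?_
  let _ : CommGroup T := { (inferInstance : Group T) with mul_comm := hc }
  exact IsSimpleGroup.prime_card

theorem sq_mem {n r : ℕ} {l : List (ℕ × ℕ)} (hv : valid l n = true) (hr : r.Prime) (h : r ^ 2 ∣ n) :
    ∃ k, (r, k) ∈ l ∧ 2 ≤ k := by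
  obtain ⟨k, hk, h2⟩ := OrdDiv.exists_pair hv hr (j := 2) (by norm_num) h
  exact ⟨k, hk, h2⟩

variable {T : Type u} [Group T] [Finite T] {A : Subgroup (MulAut T)} {L : Subgroup T}

/-- `|T : L|` divides `|C(z)| |Out T|` for some `z ∈ A₀` of order `p` -/
theorem cent (h : Reg A L) (hc : center T = ⊥) {p k : ℕ} (hp : p.Prime) (hd : p ^ k ∣ L.index)
    (hout : ¬ p ^ k ∣ (Inn T).index) :
    ∃ z ∈ inner A, orderOf z = p ∧ L.index ∣ Nat.card (centralizer ({z} : Set T)) * (Inn T).index := by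
  obtain ⟨z, hz, hzp⟩ := h.exists_inner hc hp hd hout
  exact ⟨z, hz, hzp, h.index_dvd_cent hc (Set.singleton_subset_iff.2 hz)⟩

/-- the two squares, for an index with the primes in a given list -/
theorem two_sq (h : Reg A L) {n : ℕ} {l : List (ℕ × ℕ)} (hv : valid l n = true) (hn : L.index ∣ n) :
    ∃ r s : ℕ, r ≠ s ∧ r ^ 2 ∣ L.index ∧ s ^ 2 ∣ L.index ∧ (∃ k, (r, k) ∈ l ∧ 2 ≤ k) ∧ ∃ k, (s, k) ∈ l ∧ 2 ≤ k := by
  obtain ⟨r, s, hr, hs, hrs, hr2, hs2⟩ := h.exists_two_primes
  exact ⟨r, s, hrs, hr2, hs2, sq_mem hv hr (hr2.trans hn), sq_mem hv hs (hs2.trans hn)⟩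

theorem not_dvd_of_eq {a b c : ℕ} (h : a ∣ b) (hb : b = c) (hc : c % a ≠ 0) : False := by
  subst hb
  exact hc (Nat.mod_eq_zero_of_dvd h)

end Cfsg.Agent.H811.BG
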